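import Cfsg.Agent.H235.Ore.Eng

/-!
# Elements which are not conjugate to a given power: certificates (helper235)

If `c` preserves the colouring and `c x c⁻¹ = x ^ e` (`x` of order dividing `o`), then
`c (x ^ k p) = x ^ (e k mod o) (c p)`. The certificate: representatives `y` of the `⟨x⟩`-orbits of the possible images
of `p`; for each of them no point `z` is possible as the image of `q`.
-/

set_option autoImplicit false

namespace Cfsg.Agent.H235.Ore.Eng

open Subgroup Equiv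

/-- the exponent -/
def mj (o e k : ℕ) : ℕ := Nat.mod (Nat.mul e k) o

/-- the data of a point `y`: the list of `(i, x ^ (e i mod o) y, R (x ^ i p) q)` -/
structure Nd where
  y : ℕ
  is : List (ℕ × ℕ × ℕ)

section

variable (n : ℕ) (R : ℕ → ℕ → ℕ) (pv : ℕ → ℕ → ℕ) (o e p q : ℕ) (ks1 ks2 : List (ℕ × ℕ))

/-- the tests of the image of `p` -/
def nc1 (y : ℕ) : Bool := ks1.all fun k => Nat.beq (R y (pv (mj o e k.1) y)) k.2
/-- the tests of the image of `q` -/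
def nc2 (z : ℕ) : Bool := ks2.all fun k => Nat.beq (R z (pv (mj o e k.1) z)) k.2

/-- the check that no `c` preserving `R` inverts `x` -/
def ncOk (Y : List Nd) : Bool :=
  and (and (Nat.blt p n) (Nat.blt q n)) (and
    (and (ks1.all fun k => Nat.beq (R p (pv k.1 p)) k.2) (ks2.all fun k => Nat.beq (R q (pv k.1 q)) k.2))
    (and ((List.range n).all fun y => bif nc1 R pv o e ks1 y then
        Y.any fun d => (List.range o).any fun j => Nat.beq (pv j d.y) y else true)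
      (Y.all fun d => and (Nat.blt d.y n) (and (d.is.all fun i =>
          and (Nat.beq (pv (mj o e i.1) d.y) i.2.1) (Nat.beq (R (pv i.1 p) q) i.2.2))
        ((List.range n).all fun z => bif d.is.all fun i => Nat.beq (R i.2.1 z) i.2.2 then
          (bif nc2 R pv o e ks2 z then false else true) else true)))))

end

theorem not_pow_of {n : ℕ} {R : ℕ → ℕ → ℕ} {pv : ℕ → ℕ → ℕ} {x : Perm (Fin n)} (hpv : Pv x pv) {o e p q : ℕ}
    {ks1 ks2 : List (ℕ × ℕ)} {Y : List Nd} (h : ncOk n R pv o e p q ks1 ks2 Y = true) (ho : x ^ o = 1)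
    {G : Subgroup (Perm (Fin n))} (hG : ∀ g ∈ G, ∀ i j : Fin n, R (g i) (g j) = R i j) (hx : x ∈ G)
    {c : Perm (Fin n)} (hcG : c ∈ G) : c * x * c⁻¹ ≠ x ^ e := by
  intro hc
  unfold ncOk at h
  rw [Bool.and_eq_true, Bool.and_eq_true, Bool.and_eq_true, Bool.and_eq_true, Bool.and_eq_true, List.all_eq_true,
    List.all_eq_true, List.all_eq_true, List.all_eq_true, Nat.blt_eq, Nat.blt_eq] at h
  obtain ⟨⟨hp, hq⟩, ⟨h1, h2⟩, h3, h4⟩ := h
  have hk : ∀ (d : Perm (Fin n)), d * x * d⁻¹ = x ^ e → ∀ (k : ℕ) (i : Fin n), d ((x ^ k) i) = (x ^ mj o e k) (d i) := by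
    intro d hd k i
    have e1 : d * x ^ k = (x ^ e) ^ k * d := by
      rw [← hd, conj_pow, inv_mul_cancel_right]
    have e2 : (x ^ e) ^ k = x ^ mj o e k := by
      rw [← pow_mul]
      exact pow_eq_pow_mod (e * k) ho
    rw [← Perm.mul_apply, e1, e2, Perm.mul_apply]
  have t1 := h3 _ (List.mem_range.2 (c ⟨p, hp⟩).2)
  have t2 : nc1 R pv o e ks1 (c ⟨p, hp⟩) = true := by
    unfold nc1
    rw [List.all_eq_true]
    intro k hkm
    have hk0 := h1 k hkm
    have e1 := hk c hc k.1 ⟨p, hp⟩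
    show Nat.beq (R (c ⟨p, hp⟩) (pv (mj o e k.1) (c ⟨p, hp⟩))) k.2 = true
    rw [hpv, ← e1, hG c hcG, ← hpv]
    exact hk0
  rw [t2, cond_true, List.any_eq_true] at t1
  obtain ⟨d, hdY, t1⟩ := t1
  rw [List.any_eq_true] at t1
  obtain ⟨j, -, t1⟩ := t1
  have t3 := Nat.eq_of_beq_eq_true t1
  have h5 := h4 d hdY
  rw [Bool.and_eq_true, Bool.and_eq_true, Nat.blt_eq, List.all_eq_true, List.all_eq_true] at h5
  obtain ⟨hdy, h5, h6⟩ := h5
  have t4 : (x ^ j) ⟨d.y, hdy⟩ = c ⟨p, hp⟩ := Fin.ext ((hpv j ⟨d.y, hdy⟩).symm.trans t3)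
  -- replace `c`
  obtain ⟨c', hc'⟩ : ∃ c', c' = (x ^ j)⁻¹ * c := ⟨_, rfl⟩
  have hc'G : c' ∈ G := by rw [hc']; exact mul_mem (inv_mem (pow_mem hx j)) hcG
  have hc'x : c' * x * c'⁻¹ = x ^ e := by
    have e1 : (x ^ j)⁻¹ * x ^ e * x ^ j = x ^ e := by
      have e2 : Commute (x ^ j)⁻¹ (x ^ e) := ((Commute.refl x).pow_pow j e).inv_left
      rw [e2.eq, inv_mul_cancel_right]
    calc c' * x * c'⁻¹ = (x ^ j)⁻¹ * (c * x * c⁻¹) * x ^ j := by rw [hc']; group
      _ = x ^ e := by rw [hc, e1]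
  have hc'p : c' ⟨p, hp⟩ = ⟨d.y, hdy⟩ := by
    rw [hc', Perm.mul_apply, ← t4]
    exact (x ^ j).symm_apply_apply _
  have t5 := h6 _ (List.mem_range.2 (c' ⟨q, hq⟩).2)
  have t6 : (d.is.all fun i => Nat.beq (R i.2.1 (c' ⟨q, hq⟩)) i.2.2) = true := by
    rw [List.all_eq_true]
    intro i hi
    have h7 := h5 i hi
    rw [Bool.and_eq_true] at h7
    obtain ⟨h8, h9⟩ := h7
    have e1 := hk c' hc'x i.1 ⟨p, hp⟩
    rw [hc'p] at e1
    have e2 : i.2.1 = (c' ((x ^ i.1) ⟨p, hp⟩) : ℕ) := by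
      rw [e1, ← hpv]
      exact (Nat.eq_of_beq_eq_true h8).symm
    rw [e2, hG c' hc'G, ← hpv]
    exact h9
  have t7 : nc2 R pv o e ks2 (c' ⟨q, hq⟩) = true := by
    unfold nc2
    rw [List.all_eq_true]
    intro k hkm
    have hk0 := h2 k hkm
    have e1 := hk c' hc'x k.1 ⟨q, hq⟩
    show Nat.beq (R (c' ⟨q, hq⟩) (pv (mj o e k.1) (c' ⟨q, hq⟩))) k.2 = true
    rw [hpv, ← e1, hG c' hc'G, ← hpv]
    exact hk0
  rw [t6, cond_true, t7, cond_true] at t5
  exact absurd t5 (by decide)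

/-- the number of `i` with `R i (x i) = 1` -/
def adjN {n : ℕ} (R : ℕ → ℕ → ℕ) (g : Perm (Fin n)) : ℕ := (Finset.univ.filter fun i : Fin n => R i (g i) = 1).card

theorem adjN_conj {n : ℕ} {R : ℕ → ℕ → ℕ} {c : Perm (Fin n)} (hc : ∀ i j : Fin n, R (c i) (c j) = R i j)
    (g : Perm (Fin n)) : adjN R (c * g * c⁻¹) = adjN R g := by
  unfold adjN
  symm
  refine Finset.card_bij (fun z _ => c z) (fun z hz => ?_) (fun a _ b _ e => c.injective e) fun z hz => ?_
  · rw [Finset.mem_filter] at hz ⊢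
    refine ⟨Finset.mem_univ _, ?_⟩
    have e : c⁻¹ (c z) = z := c.symm_apply_apply z
    rw [Perm.mul_apply, Perm.mul_apply, e, hc, hz.2]
  · rw [Finset.mem_filter] at hz
    refine ⟨c⁻¹ z, ?_, c.apply_symm_apply z⟩
    rw [Finset.mem_filter]
    refine ⟨Finset.mem_univ _, ?_⟩
    have h := hz.2
    have e : c (c⁻¹ z) = z := c.apply_symm_apply z
    rw [← hc, e]
    exact h

theorem adjN_val {n : ℕ} {R : ℕ → ℕ → ℕ} {x : Perm (Fin n)} {f : ℕ → ℕ} (hf : ∀ i : Fin n, f i = (x i : ℕ)) :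
    adjN R x = cnt n fun i => Nat.beq (R i (f i)) 1 := by
  rw [cnt_fin, adjN]
  congr 1
  refine Finset.filter_congr fun i _ => ?_
  rw [hf]
  exact ⟨fun h => by rw [h]; rfl, fun h => Nat.eq_of_beq_eq_true h⟩

theorem adjN_inv {n : ℕ} {R : ℕ → ℕ → ℕ} (hs : ∀ i j : Fin n, R i j = R j i) {g : Perm (Fin n)}
    (hg : ∀ i j : Fin n, R (g i) (g j) = R i j) : adjN R g⁻¹ = adjN R g := by
  unfold adjN
  congr 1
  refine Finset.filter_congr fun i _ => ?_
  have e : g (g⁻¹ i) = i := g.apply_symm_apply i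
  have h1 := hg i (g⁻¹ i)
  rw [e] at h1
  rw [← h1, hs (g i) i]

end Cfsg.Agent.H235.Ore.Eng
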