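import Cfsg.Agent.H235.Ore.He
import Cfsg.Agent.H78.Pw.Base

/-!
# In the Held group every element is a product of two elements of order prime to `6` (to `p`) (helper235)
-/

set_option autoImplicit false
set_option maxRecDepth 100000

namespace Cfsg.Agent.H235.Ore.HePw

open Subgroup
open Cfsg.Spor.He (Gen)
open Cfsg.Agent.SporadicB.HePerm (act wd)
open Cfsg.Agent.FixBN.HeStab Cfsg.Agent.KFacts.He.Lv Cfsg.Agent.CpAutHe.Cnt
open Cfsg.Agent.H235.Ore.HeEng Cfsg.Agent.H235.Ore.HeCert Cfsg.Agent.H235.Ore.He Cfsg.Agent.H78.Pw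
open Cfsg.Agent.H153.Zeros.He17 (W17 o17)
open Cfsg.Agent.H587.NR.He (wd_reverse)
open Cfsg.Agent.H19.Odd.HeCnt (XB XC)

universe u

theorem pow_of {X : List Gen} {k : ℕ} (h : chkB (pw X k) [] = true) : wd X ^ k = 1 := by
  rw [← wd_pw]
  exact eq_of_chkB h

theorem pr_of {X A : List Gen} {n j k : ℕ} (hj : chkB (pw A j) [] = true) (hk : chkB (pw (A.reverse ++ X) k) [] = true)
    (cj : j.Coprime n) (ck : k.Coprime n) : Pr n (wd X) := by
  refine ⟨wd A, (wd A)⁻¹ * wd X, by group, Nat.Coprime.of_dvd_left (orderOf_dvd_of_pow_eq_one (pow_of hj)) cj, ?_⟩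
  rw [← wd_reverse, ← wd_append]
  exact Nat.Coprime.of_dvd_left (orderOf_dvd_of_pow_eq_one (pow_of hk)) ck

theorem pr_ord {x : Cfsg.Spor.He} {n o : ℕ} (h : orderOf x = o) (c : o.Coprime n) : Pr n x := by
  apply Pr.of_coprime
  rwa [h]

theorem pr_zp {a : Cfsg.Spor.He} (ha : a ∈ zpowers (wd W17)) {n : ℕ} (c : Nat.Coprime 17 n) : Pr n a := by
  apply Pr.of_coprime
  refine Nat.Coprime.of_dvd_left ?_ c
  rw [← o17]
  exact orderOf_dvd_of_mem_zpowers ha

theorem pr17 {a : Cfsg.Spor.He} (ha : a ∈ zpowers (wd W17)) : Pr 17 a := by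
  obtain ⟨k, rfl⟩ := mem_zpowers_iff.1 ha
  have hs' : wd [.c, .f] * wd [.c, .f] = 1 := sq_of (by decide +kernel)
  have hi : wd [.c, .f] * wd W17 * (wd [.c, .f])⁻¹ = (wd W17)⁻¹ := by
    have h := eq_of_chkB (show chkB ([.c, .f] ++ W17) (W17.reverse ++ [.c, .f]) = true by decide +kernel)
    rw [wd_append, wd_append, wd_reverse] at h
    rw [h, mul_inv_cancel_right]
  have hk : wd [.c, .f] * wd W17 ^ k * (wd [.c, .f])⁻¹ = (wd W17 ^ k)⁻¹ := by
    rw [← conj_zpow, hi, inv_zpow]
  have hs2 : (wd [.c, .f])⁻¹ = wd [.c, .f] := inv_eq_of_mul_eq_one_left hs'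
  rw [hs2] at hk
  have h2 : ∀ x : Cfsg.Spor.He, x * x = 1 → (orderOf x).Coprime 17 := fun x hx =>
    Nat.Coprime.of_dvd_left (orderOf_dvd_of_pow_eq_one (n := 2) (by rw [pow_two, hx])) (by norm_num)
  refine ⟨wd W17 ^ k * wd [.c, .f], wd [.c, .f], by rw [mul_assoc, hs', mul_one], h2 _ ?_, h2 _ hs'⟩
  calc wd W17 ^ k * wd [.c, .f] * (wd W17 ^ k * wd [.c, .f])
      = wd W17 ^ k * (wd [.c, .f] * wd W17 ^ k * wd [.c, .f]) := by group
    _ = 1 := by rw [hk, mul_inv_cancel]

theorem p2A_6 : Pr 6 (wd x2A) := pr_of (A := [.b, .d, .c, .f, .b, .d, .f, .c]) (j := 17) (k := 17)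
  (by decide +kernel) (by decide +kernel) (by norm_num) (by norm_num)
theorem p2B_6 : Pr 6 (wd x2B) := pr_of (A := [.e, .d, .g, .f]) (j := 7) (k := 7)
  (by decide +kernel) (by decide +kernel) (by norm_num) (by norm_num)
theorem p3A_6 : Pr 6 (wd x3A) := pr_of (A := [.e, .c, .d]) (j := 5) (k := 5)
  (by decide +kernel) (by decide +kernel) (by norm_num) (by norm_num)
theorem p4A_6 : Pr 6 (wd x4A) := pr_of (A := [.b, .e, .b, .d, .c, .f, .b, .d, .g, .c]) (j := 7) (k := 7)
  (by decide +kernel) (by decide +kernel) (by norm_num) (by norm_num)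
theorem p4B_6 : Pr 6 (wd x4B) := pr_of (A := [.d, .c, .a, .d, .g]) (j := 5) (k := 5)
  (by decide +kernel) (by decide +kernel) (by norm_num) (by norm_num)
theorem p4C_6 : Pr 6 (wd x4C) := pr_of (A := [.c, .d, .g, .f, .c]) (j := 7) (k := 5)
  (by decide +kernel) (by decide +kernel) (by norm_num) (by norm_num)
theorem p5A_5 : Pr 5 (wd x5A) := pr_of (A := [.a, .c]) (j := 2) (k := 2)
  (by decide +kernel) (by decide +kernel) (by norm_num) (by norm_num)
theorem p6A_6 : Pr 6 (wd x6A) := pr_of (A := [.f, .g, .d, .c, .d]) (j := 5) (k := 5)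
  (by decide +kernel) (by decide +kernel) (by norm_num) (by norm_num)
theorem p6B_6 : Pr 6 (wd x6B) := pr_of (A := [.c, .g, .d, .g, .c, .d]) (j := 5) (k := 17)
  (by decide +kernel) (by decide +kernel) (by norm_num) (by norm_num)
theorem p7A_7 : Pr 7 (wd x7A) := pr_of (A := [.d, .f]) (j := 3) (k := 2)
  (by decide +kernel) (by decide +kernel) (by norm_num) (by norm_num)
theorem p7D_7 : Pr 7 (wd x7D) := pr_of (A := [.c, .g, .b]) (j := 6) (k := 2)
  (by decide +kernel) (by decide +kernel) (by norm_num) (by norm_num)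
theorem p8A_6 : Pr 6 (wd x8A) := pr_of (A := [.d, .e, .g, .c, .d, .f, .a, .g]) (j := 7) (k := 7)
  (by decide +kernel) (by decide +kernel) (by norm_num) (by norm_num)
theorem p10A_6 : Pr 6 (wd x10A) := pr_of (A := [.d, .f, .g]) (j := 7) (k := 5)
  (by decide +kernel) (by decide +kernel) (by norm_num) (by norm_num)
theorem p10A_5 : Pr 5 (wd x10A) := pr_of (A := [.c]) (j := 2) (k := 2)
  (by decide +kernel) (by decide +kernel) (by norm_num) (by norm_num)
theorem p12A_6 : Pr 6 (wd x12A) := pr_of (A := [.c, .d, .f, .g, .d]) (j := 5) (k := 5)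
  (by decide +kernel) (by decide +kernel) (by norm_num) (by norm_num)
theorem p12B_6 : Pr 6 (wd x12B) := pr_of (A := [.c, .d, .a, .g, .e, .d, .e, .f, .d, .a, .g]) (j := 7) (k := 5)
  (by decide +kernel) (by decide +kernel) (by norm_num) (by norm_num)
theorem p14A_6 : Pr 6 (wd x14A) := pr_of (A := [.c, .d, .a]) (j := 5) (k := 5)
  (by decide +kernel) (by decide +kernel) (by norm_num) (by norm_num)
theorem p14A_7 : Pr 7 (wd x14A) := pr_of (A := [.a, .d]) (j := 2) (k := 4)
  (by decide +kernel) (by decide +kernel) (by norm_num) (by norm_num)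
theorem p14C_6 : Pr 6 (wd x14C) := pr_of (A := [.f, .d, .f, .c, .e]) (j := 5) (k := 7)
  (by decide +kernel) (by decide +kernel) (by norm_num) (by norm_num)
theorem p14C_7 : Pr 7 (wd x14C) := pr_of (A := [.b, .g, .f]) (j := 4) (k := 2)
  (by decide +kernel) (by decide +kernel) (by norm_num) (by norm_num)
theorem p15A_6 : Pr 6 (wd x15A) := pr_of (A := [.a, .f, .g, .d, .e, .a]) (j := 7) (k := 7)
  (by decide +kernel) (by decide +kernel) (by norm_num) (by norm_num)
theorem p15A_5 : Pr 5 (wd x15A) := pr_of (A := [.b, .d]) (j := 2) (k := 2)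
  (by decide +kernel) (by decide +kernel) (by norm_num) (by norm_num)
theorem p21A_6 : Pr 6 (wd x21A) := pr_of (A := [.e, .c, .d, .b, .f, .b, .e, .f, .a]) (j := 5) (k := 5)
  (by decide +kernel) (by decide +kernel) (by norm_num) (by norm_num)
theorem p21A_7 : Pr 7 (wd x21A) := pr_of (A := [.a, .d]) (j := 2) (k := 3)
  (by decide +kernel) (by decide +kernel) (by norm_num) (by norm_num)
theorem p21B_6 : Pr 6 (wd x21A ^ 2) := by
  rw [← wd_pw]
  exact pr_of (A := [.c, .d, .a]) (j := 5) (k := 5) (by decide +kernel) (by decide +kernel) (by norm_num) (by norm_num)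
theorem p21B_7 : Pr 7 (wd x21A ^ 2) := by
  rw [← wd_pw]
  exact pr_of (A := [.a, .d, .b, .a]) (j := 2) (k := 2) (by decide +kernel) (by decide +kernel) (by norm_num) (by norm_num)
theorem p21C_6 : Pr 6 (wd x21C) := pr_of (A := [.f, .g, .d, .e]) (j := 7) (k := 7)
  (by decide +kernel) (by decide +kernel) (by norm_num) (by norm_num)
theorem p21C_7 : Pr 7 (wd x21C) := pr_of (A := [.b, .f]) (j := 2) (k := 3)
  (by decide +kernel) (by decide +kernel) (by norm_num) (by norm_num)
theorem p28A_6 : Pr 6 (wd x28A) := pr_of (A := [.a, .e, .c, .b, .d, .g]) (j := 17) (k := 5)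
  (by decide +kernel) (by decide +kernel) (by norm_num) (by norm_num)
theorem p28A_7 : Pr 7 (wd x28A) := pr_of (A := [.a, .b, .d]) (j := 4) (k := 4)
  (by decide +kernel) (by decide +kernel) (by norm_num) (by norm_num)
theorem pB_6 : Pr 6 (wd XB) := pr_of (A := [.c, .e, .d]) (j := 5) (k := 5)
  (by decide +kernel) (by decide +kernel) (by norm_num) (by norm_num)
theorem pC_7 : Pr 7 (wd XC) := pr_of (A := [.a, .b, .c]) (j := 6) (k := 6)
  (by decide +kernel) (by decide +kernel) (by norm_num) (by norm_num)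
theorem pw6 : All 6 Cfsg.Spor.He := by
  refine all_model (Pr 6) (fun x y h k => k.of_isConj h) (fun a ha => pr_zp ha (by norm_num)) fun a b ha hb p hp => ?_
  simp only [L, List.mem_cons, List.not_mem_nil, or_false] at hp
  rcases hp with rfl | rfl | rfl | rfl | rfl | rfl | rfl | rfl | rfl | rfl | rfl | rfl | rfl | rfl | rfl | rfl | rfl | rfl | rfl | rfl | rfl | rfl | rfl | rfl | rfl | rfl | rfl | rfl | rfl | rfl | rfl | rfl | rfl
  · exact ha
  · exact hb
  · exact Pr.one 6
  · exact p21A_6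
  · exact p21B_6
  · exact p2A_6
  · exact p2B_6
  · exact p3A_6
  · exact pB_6
  · exact p4A_6
  · exact p4B_6
  · exact p4C_6
  · exact p6A_6
  · exact p6B_6
  · exact p12A_6
  · exact p12B_6
  · exact (pr_ord o5A (by norm_num))
  · exact p8A_6
  · exact p10A_6
  · exact p15A_6
  · exact p14A_6
  · exact Pr.inv p14A_6
  · exact p14C_6
  · exact Pr.inv p14C_6
  · exact p28A_6
  · exact Pr.inv p28A_6
  · exact (pr_ord o7A (by norm_num))
  · exact Pr.inv (pr_ord o7A (by norm_num))
  · exact (pr_ord o7C (by norm_num))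
  · exact (pr_ord o7D (by norm_num))
  · exact Pr.inv (pr_ord o7D (by norm_num))
  · exact p21C_6
  · exact Pr.inv p21C_6

theorem pw5 : All 5 Cfsg.Spor.He := by
  refine all_model (Pr 5) (fun x y h k => k.of_isConj h) (fun a ha => pr_zp ha (by norm_num)) fun a b ha hb p hp => ?_
  simp only [L, List.mem_cons, List.not_mem_nil, or_false] at hp
  rcases hp with rfl | rfl | rfl | rfl | rfl | rfl | rfl | rfl | rfl | rfl | rfl | rfl | rfl | rfl | rfl | rfl | rfl | rfl | rfl | rfl | rfl | rfl | rfl | rfl | rfl | rfl | rfl | rfl | rfl | rfl | rfl | rfl | rfl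
  · exact ha
  · exact hb
  · exact Pr.one 5
  · exact (pr_ord o21A (by norm_num))
  · exact (pr_ord o21B (by norm_num))
  · exact (pr_ord o2A (by norm_num))
  · exact (pr_ord o2B (by norm_num))
  · exact (pr_ord o3A (by norm_num))
  · exact (pr_ord o3B (by norm_num))
  · exact (pr_ord o4A (by norm_num))
  · exact (pr_ord o4B (by norm_num))
  · exact (pr_ord o4C (by norm_num))
  · exact (pr_ord o6A (by norm_num))
  · exact (pr_ord o6B (by norm_num))
  · exact (pr_ord o12A (by norm_num))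
  · exact (pr_ord o12B (by norm_num))
  · exact p5A_5
  · exact (pr_ord o8A (by norm_num))
  · exact p10A_5
  · exact p15A_5
  · exact (pr_ord o14A (by norm_num))
  · exact Pr.inv (pr_ord o14A (by norm_num))
  · exact (pr_ord o14C (by norm_num))
  · exact Pr.inv (pr_ord o14C (by norm_num))
  · exact (pr_ord o28A (by norm_num))
  · exact Pr.inv (pr_ord o28A (by norm_num))
  · exact (pr_ord o7A (by norm_num))
  · exact Pr.inv (pr_ord o7A (by norm_num))
  · exact (pr_ord o7C (by norm_num))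
  · exact (pr_ord o7D (by norm_num))
  · exact Pr.inv (pr_ord o7D (by norm_num))
  · exact (pr_ord o21C (by norm_num))
  · exact Pr.inv (pr_ord o21C (by norm_num))

theorem pw7 : All 7 Cfsg.Spor.He := by
  refine all_model (Pr 7) (fun x y h k => k.of_isConj h) (fun a ha => pr_zp ha (by norm_num)) fun a b ha hb p hp => ?_
  simp only [L, List.mem_cons, List.not_mem_nil, or_false] at hp
  rcases hp with rfl | rfl | rfl | rfl | rfl | rfl | rfl | rfl | rfl | rfl | rfl | rfl | rfl | rfl | rfl | rfl | rfl | rfl | rfl | rfl | rfl | rfl | rfl | rfl | rfl | rfl | rfl | rfl | rfl | rfl | rfl | rfl | rfl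
  · exact ha
  · exact hb
  · exact Pr.one 7
  · exact p21A_7
  · exact p21B_7
  · exact (pr_ord o2A (by norm_num))
  · exact (pr_ord o2B (by norm_num))
  · exact (pr_ord o3A (by norm_num))
  · exact (pr_ord o3B (by norm_num))
  · exact (pr_ord o4A (by norm_num))
  · exact (pr_ord o4B (by norm_num))
  · exact (pr_ord o4C (by norm_num))
  · exact (pr_ord o6A (by norm_num))
  · exact (pr_ord o6B (by norm_num))
  · exact (pr_ord o12A (by norm_num))
  · exact (pr_ord o12B (by norm_num))
  · exact (pr_ord o5A (by norm_num))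
  · exact (pr_ord o8A (by norm_num))
  · exact (pr_ord o10A (by norm_num))
  · exact (pr_ord o15A (by norm_num))
  · exact p14A_7
  · exact Pr.inv p14A_7
  · exact p14C_7
  · exact Pr.inv p14C_7
  · exact p28A_7
  · exact Pr.inv p28A_7
  · exact p7A_7
  · exact Pr.inv p7A_7
  · exact pC_7
  · exact p7D_7
  · exact Pr.inv p7D_7
  · exact p21C_7
  · exact Pr.inv p21C_7

theorem pw17 : All 17 Cfsg.Spor.He := by
  refine all_model (Pr 17) (fun x y h k => k.of_isConj h) (fun a ha => pr17 ha) fun a b ha hb p hp => ?_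
  simp only [L, List.mem_cons, List.not_mem_nil, or_false] at hp
  rcases hp with rfl | rfl | rfl | rfl | rfl | rfl | rfl | rfl | rfl | rfl | rfl | rfl | rfl | rfl | rfl | rfl | rfl | rfl | rfl | rfl | rfl | rfl | rfl | rfl | rfl | rfl | rfl | rfl | rfl | rfl | rfl | rfl | rfl
  · exact ha
  · exact hb
  · exact Pr.one 17
  · exact (pr_ord o21A (by norm_num))
  · exact (pr_ord o21B (by norm_num))
  · exact (pr_ord o2A (by norm_num))
  · exact (pr_ord o2B (by norm_num))
  · exact (pr_ord o3A (by norm_num))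
  · exact (pr_ord o3B (by norm_num))
  · exact (pr_ord o4A (by norm_num))
  · exact (pr_ord o4B (by norm_num))
  · exact (pr_ord o4C (by norm_num))
  · exact (pr_ord o6A (by norm_num))
  · exact (pr_ord o6B (by norm_num))
  · exact (pr_ord o12A (by norm_num))
  · exact (pr_ord o12B (by norm_num))
  · exact (pr_ord o5A (by norm_num))
  · exact (pr_ord o8A (by norm_num))
  · exact (pr_ord o10A (by norm_num))
  · exact (pr_ord o15A (by norm_num))
  · exact (pr_ord o14A (by norm_num))
  · exact Pr.inv (pr_ord o14A (by norm_num))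
  · exact (pr_ord o14C (by norm_num))
  · exact Pr.inv (pr_ord o14C (by norm_num))
  · exact (pr_ord o28A (by norm_num))
  · exact Pr.inv (pr_ord o28A (by norm_num))
  · exact (pr_ord o7A (by norm_num))
  · exact Pr.inv (pr_ord o7A (by norm_num))
  · exact (pr_ord o7C (by norm_num))
  · exact (pr_ord o7D (by norm_num))
  · exact Pr.inv (pr_ord o7D (by norm_num))
  · exact (pr_ord o21C (by norm_num))
  · exact Pr.inv (pr_ord o21C (by norm_num))

theorem pw_model : Pw Cfsg.Spor.He := by
  refine ⟨pw6, fun p hp h5 => ?_⟩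
  by_cases h : p ∣ 4030387200
  · have h1 : p = 5 ∨ p = 7 ∨ p = 17 := by
      rw [show 4030387200 = 2 ^ 10 * (3 ^ 3 * (5 ^ 2 * (7 ^ 3 * 17))) by norm_num, hp.dvd_mul, hp.dvd_mul, hp.dvd_mul,
        hp.dvd_mul] at h
      rcases h with h | h | h | h | h
      · have := (Nat.prime_dvd_prime_iff_eq hp (by norm_num)).1 (hp.dvd_of_dvd_pow h); omega
      · have := (Nat.prime_dvd_prime_iff_eq hp (by norm_num)).1 (hp.dvd_of_dvd_pow h); omega
      · have := (Nat.prime_dvd_prime_iff_eq hp (by norm_num)).1 (hp.dvd_of_dvd_pow h); omega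
      · have := (Nat.prime_dvd_prime_iff_eq hp (by norm_num)).1 (hp.dvd_of_dvd_pow h); omega
      · have := (Nat.prime_dvd_prime_iff_eq hp (by norm_num)).1 h; omega
    rcases h1 with rfl | rfl | rfl
    · exact pw5
    · exact pw7
    · exact pw17
  · intro g
    apply Pr.of_coprime
    refine Nat.Coprime.of_dvd_left (orderOf_dvd_natCard g) ?_
    rw [card_he]
    exact ((Nat.Prime.coprime_iff_not_dvd hp).2 h).symm

/-- **products of two elements of order prime to `6` or `p` in `He`** -/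
theorem pw_He {S : Type u} [Group S] (h : Cfsg.Spor.IsoHe S) : Pw S := by
  obtain ⟨e⟩ := h
  exact ⟨All.congr e.symm pw_model.1, fun p hp h5 => All.congr e.symm (pw_model.2 p hp h5)⟩

end Cfsg.Agent.H235.Ore.HePw
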